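import Cfsg.Agent.H499.Tri.OneParam
import Cfsg.Agent.H256.RC.ZBase

/-!
# S3510, triality type iii (helper499): boxes ZU1, ZU2

One-parameter families `1 + t X`, `1 + t X + t² Y` of automorphisms of the twisted product `dia (fG s)` are trivial.
-/

set_option autoImplicit false
open Cfsg

namespace Cfsg.Agent.H499.RC

open Module QuadraticMap MulAction Polynomial
open Cfsg.Agent.LieClassical.OrthCore Cfsg.Agent.LieClassical.OrthTrans
open Cfsg.Agent.LieClassical.OrthSimple Cfsg.Agent.ClassicalGeometry.OrthSemi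
open Cfsg.Agent.ClassicalGeometry.OrthAut1 Cfsg.Agent.H106.RC Cfsg.Agent.H93.RC Cfsg.Agent.H566.RC
open Cfsg.Agent.LieClassical.QuadForms Cfsg.Agent.ClassicalGeometry.TrialityOct
open Cfsg.Agent.ClassicalGeometry.Triality Cfsg.Agent.ClassicalGeometry.TrialitySpaces
open Cfsg.Agent.H198.TriBase Cfsg.Agent.H198.TriAut Cfsg.Agent.H206.Balance Cfsg.Agent.H198.TriDia
open Cfsg.Agent.H864.RC Cfsg.Agent.H579.RC Cfsg.Agent.H499.Tri

variable {F : Type} [Field F]

/-- type I -/
theorem ZU1 [Finite F] {s : F ≃+* F} (h3 : ∀ a, s (s (s a)) = a) (hne : s ≠ RingEquiv.refl F)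
    (X : V8 F →ₗ[F] V8 F) (c : F → (V8 F ≃ₗ[F] V8 F)) (hc : ∀ t, c t ∈ AutD (fG s))
    (hX : ∀ t v, c t v = v + t • X v) : X = 0 := by
  refine eq_zero_of_aut h3 hne fun t u w => ?_
  have h := (hc t).2 u w
  rwa [hX, hX, hX] at h

/-! ### Lines -/

theorem omul_sing {z : V8 F} (hz : z ≠ 0) (f : V8 F → V8 F → V8 F)
    (hadd : ∀ a b, f (a + b) z = f a z + f b z)
    (hf : ∀ a, f (oconj a) (f a z) = plusForm 4 F a • z) (hsm : ∀ a (k : F) , f a (k • z) = k • f a z)
    (hneg : ∀ a, f (-a) z = - f a z) (hl : ∀ a, ∃ k : F, f a z = k • z) : False := by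
  have key : ∀ a : V8 F, oconj a = -a → plusForm 4 F a = 0 → f a z = 0 := by
    intro a ha hQ
    obtain ⟨k, hk⟩ := hl a
    have h1 := hf a
    rw [ha, hk, hsm, hneg, hk, hQ, zero_smul, smul_neg, neg_eq_zero, smul_smul] at h1
    rcases smul_eq_zero.1 h1 with h2 | h2
    · rw [hk, mul_self_eq_zero.1 h2, zero_smul]
    · exact (hz h2).elim
  let a : V8 F := Sum.elim ![0, 1, 0, 0] ![0, 0, 0, 0]
  let b : V8 F := Sum.elim ![0, 0, 0, 0] ![0, 1, 0, 0]
  have ha : oconj a = -a := by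
    apply ext8 <;> simp [a, oconj_l0, oconj_l1, oconj_l2, oconj_l3, oconj_r0, oconj_r1, oconj_r2, oconj_r3]
  have hb : oconj b = -b := by
    apply ext8 <;> simp [b, oconj_l0, oconj_l1, oconj_l2, oconj_l3, oconj_r0, oconj_r1, oconj_r2, oconj_r3]
  have hQa : plusForm 4 F a = 0 := by rw [norm8]; simp [a]
  have hQb : plusForm 4 F b = 0 := by rw [norm8]; simp [b]
  have hQ : plusForm 4 F (a + b) = 1 := by rw [norm8]; simp [a, b]
  have h1 := hf (a + b)
  rw [hadd, key a ha hQa, key b hb hQb, add_zero, hQ, one_smul] at h1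
  have h0 : f (oconj (a + b)) 0 = 0 := by
    have := hsm (oconj (a + b)) 0
    rwa [zero_smul, zero_smul] at this
  rw [h0] at h1
  exact hz h1.symm

/-- the products `a z` do not lie on a line -/
theorem line_left {z y : V8 F} (hz : z ≠ 0) (h : ∀ a, ∃ k : F, omul a z = k • y) : False := by
  obtain ⟨k, hk⟩ := h (one8 F)
  rw [one_omul] at hk
  have hk0 : k ≠ 0 := by rintro rfl; exact hz (by rw [hk, zero_smul])
  refine omul_sing hz (fun a w => omul a w) (fun a b => add_omul a b z) (fun a => oconj_omul_omul a z)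
    (fun a k => omul_smul k a z) (fun a => by coord8) fun a => ?_
  obtain ⟨m, hm⟩ := h a
  refine ⟨m * k⁻¹, ?_⟩
  change omul a z = _
  rw [hm]
  conv_rhs => rw [hk]
  rw [smul_smul, mul_assoc, inv_mul_cancel₀ hk0, mul_one]

/-- the products `z a` do not lie on a line -/
theorem line_right {z y : V8 F} (hz : z ≠ 0) (h : ∀ a, ∃ k : F, omul z a = k • y) : False := by
  obtain ⟨k, hk⟩ := h (one8 F)
  rw [omul_one] at hk
  have hk0 : k ≠ 0 := by rintro rfl; exact hz (by rw [hk, zero_smul])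
  refine omul_sing hz (fun a w => omul w a) (fun a b => omul_add z a b) (fun a => omul_omul_oconj a z)
    (fun a k => smul_omul k z a) (fun a => by coord8) fun a => ?_
  obtain ⟨m, hm⟩ := h a
  refine ⟨m * k⁻¹, ?_⟩
  change omul z a = _
  rw [hm]
  conv_rhs => rw [hk]
  rw [smul_smul, mul_assoc, inv_mul_cancel₀ hk0, mul_one]

theorem oconj_ne {z : V8 F} (hz : z ≠ 0) : oconj z ≠ 0 := by
  intro h
  apply hz
  rw [← oconj_oconj z, h]
  apply ext8 <;> simp [oconj_l0, oconj_l1, oconj_l2, oconj_l3, oconj_r0, oconj_r1, oconj_r2, oconj_r3]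

/-- the products `v ⋄ z` do not lie on a line -/
theorem dia_line_left {s : F ≃+* F} {z y : V8 F} (hz : z ≠ 0) (h : ∀ v, ∃ k : F, dia (fG s) v z = k • y) : False := by
  have hz' : (fG s).1 (oconj z) ≠ 0 := by
    intro h0
    apply oconj_ne hz
    funext i
    exact (map_eq_zero s).1 (congrFun h0 i)
  refine line_left hz' (y := y) fun a => ?_
  obtain ⟨k, hk⟩ := h (oconj ((fG s).1 a))
  refine ⟨k, ?_⟩
  rw [dia, oconj_oconj] at hk
  have e1 : (fG s)⁻¹.1 ((fG s).1 a) = a := (fG s).1.symm_apply_apply _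
  rwa [e1] at hk

/-- the products `z ⋄ v` do not lie on a line -/
theorem dia_line_right {s : F ≃+* F} {z y : V8 F} (hz : z ≠ 0) (h : ∀ v, ∃ k : F, dia (fG s) z v = k • y) : False := by
  have hz' : (fG s)⁻¹.1 (oconj z) ≠ 0 := by
    intro h0
    apply oconj_ne hz
    funext i
    exact (map_eq_zero s.symm).1 (congrFun h0 i)
  refine line_right hz' (y := y) fun a => ?_
  obtain ⟨k, hk⟩ := h (oconj ((fG s)⁻¹.1 a))
  refine ⟨k, ?_⟩
  rw [dia, oconj_oconj] at hk
  have e1 : (fG s).1 ((fG s)⁻¹.1 a) = a := (fG s).1.apply_symm_apply _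
  rwa [e1] at hk

/-! ### Coefficients -/

/-- comparison of coefficients -/
theorem coeff_gen [Finite F] {N : ℕ} (n : Fin N → ℕ) (c : Fin N → F) (hn : ∀ i, n i < Nat.card F) (m : ℕ)
    (h : ∀ t : F, ∑ i, c i * t ^ n i = 0) : ∑ i, (if m = n i then c i else 0) = 0 := by
  classical
  have := Fintype.ofFinite F
  have hP : ∑ i, C (c i) * X ^ n i = (0 : F[X]) := by
    apply Polynomial.eq_zero_of_natDegree_lt_card_of_eval_eq_zero' _ Finset.univ
    · intro t _
      rw [eval_finsetSum]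
      simp only [eval_mul, eval_C, eval_pow, eval_X]
      exact h t
    · rw [Finset.card_univ, ← Nat.card_eq_fintype_card]
      have h0 : 0 < Nat.card F := Nat.card_pos
      refine lt_of_le_of_lt (b := Nat.card F - 1) ?_ (by omega)
      apply natDegree_sum_le_of_forall_le
      intro i _
      exact (natDegree_C_mul_X_pow_le _ _).trans (by have := hn i; omega)
  have h1 := congrArg (fun p : F[X] => p.coeff m) hP
  simp only [finsetSum_coeff, coeff_C_mul_X_pow, coeff_zero] at h1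
  exact h1

/-- comparison of coefficients, `|F| > 2 A + 2 B`, `A, B ≥ 3` -/
theorem coeff_big [Finite F] {A B : ℕ} (hA : 3 ≤ A) (hB : 3 ≤ B) (hq : 2 * A + 2 * B < Nat.card F)
    {a b c₁ c₂ c₃ c₄ c₅ c₆ c₇ c₈ : F}
    (h : ∀ t : F, t * a + t ^ 2 * b = t ^ A * c₁ + t ^ B * c₂ + t ^ (2 * A) * c₃ + t ^ (2 * B) * c₄ +
      t ^ (A + B) * c₅ + t ^ (2 * A + B) * c₆ + t ^ (A + 2 * B) * c₇ + t ^ (2 * A + 2 * B) * c₈) : a = 0 ∧ b = 0 := by
  have key := coeff_gen ![1, 2, A, B, 2 * A, 2 * B, A + B, 2 * A + B, A + 2 * B, 2 * A + 2 * B]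
    ![-a, -b, c₁, c₂, c₃, c₄, c₅, c₆, c₇, c₈] (by intro i; fin_cases i <;> simp <;> omega)
  have hh : ∀ t : F, ∑ i, (![-a, -b, c₁, c₂, c₃, c₄, c₅, c₆, c₇, c₈] : Fin 10 → F) i *
      t ^ (![1, 2, A, B, 2 * A, 2 * B, A + B, 2 * A + B, A + 2 * B, 2 * A + 2 * B] : Fin 10 → ℕ) i = 0 := by
    intro t
    simp [Fin.sum_univ_succ]
    linear_combination -h t
  constructor
  · have h1 := key 1 hh
    rw [Finset.sum_eq_single (0 : Fin 10)] at h1
    · simpa using h1
    · intro i _ hi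
      rw [if_neg]
      fin_cases i <;> first | exact absurd rfl hi | (simp; try omega)
    · simp
  · have h1 := key 2 hh
    rw [Finset.sum_eq_single (1 : Fin 10)] at h1
    · simpa using h1
    · intro i _ hi
      rw [if_neg]
      fin_cases i <;> first | exact absurd rfl hi | (simp; try omega)
    · simp

/-- comparison of coefficients, `|F| = 8` -/
theorem coeff_eight [Finite F] (hq : Nat.card F = 8) {a b c₁ c₂ c₃ c₄ c₅ c₆ c₇ c₈ : F}
    (h : ∀ t : F, t * a + t ^ 2 * b = t ^ 4 * c₁ + t ^ 2 * c₂ + t ^ 8 * c₃ + t ^ 4 * c₄ +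
      t ^ 6 * c₅ + t ^ 10 * c₆ + t ^ 8 * c₇ + t ^ 12 * c₈) : b = c₂ := by
  have h8 : ∀ t : F, t ^ 8 = t := fun t => by
    have := Fintype.ofFinite F
    have := FiniteField.pow_card t
    rwa [← Nat.card_eq_fintype_card, hq] at this
  have key := coeff_gen ![1, 2, 4, 2, 1, 4, 6, 3, 1, 5] ![-a, -b, c₁, c₂, c₃, c₄, c₅, c₆, c₇, c₈]
    (by rw [hq]; intro i; fin_cases i <;> simp) 2 (fun t => by
      have h1 := h t
      have h10 : t ^ 10 = t ^ 3 := by
        calc t ^ 10 = t ^ 8 * t ^ 2 := by ring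
          _ = t ^ 3 := by rw [h8]; ring
      have h12 : t ^ 12 = t ^ 5 := by
        calc t ^ 12 = t ^ 8 * t ^ 4 := by ring
          _ = t ^ 5 := by rw [h8]; ring
      rw [h8, h10, h12] at h1
      simp [Fin.sum_univ_succ]
      linear_combination -h1)
  simp [Fin.sum_univ_succ] at key
  linear_combination -key

/-- the relation obtained from `c t = 1 + t X + t² Y` -/
theorem rel {s : F ≃+* F} (X Y : V8 F →ₗ[F] V8 F) (c : F → (V8 F ≃ₗ[F] V8 F)) (hc : ∀ t, c t ∈ AutD (fG s))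
    (hX : ∀ t v, c t v = v + t • X v + t ^ 2 • Y v) (v w : V8 F) (k : Fin 4 ⊕ Fin 4) (t : F) :
    t * X (dia (fG s) v w) k + t ^ 2 * Y (dia (fG s) v w) k =
      s.symm t * dia (fG s) (X v) w k + s t * dia (fG s) v (X w) k + s.symm t ^ 2 * dia (fG s) (Y v) w k +
      s t ^ 2 * dia (fG s) v (Y w) k + s.symm t * s t * dia (fG s) (X v) (X w) k +
      s.symm t ^ 2 * s t * dia (fG s) (Y v) (X w) k + s.symm t * s t ^ 2 * dia (fG s) (X v) (Y w) k +
      s.symm t ^ 2 * s t ^ 2 * dia (fG s) (Y v) (Y w) k := by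
  have h := congrFun ((hc t).2 v w) k
  rw [hX, hX, hX] at h
  simp only [dia_add_left, dia_add_right, dia_smul_left, dia_smul_right, map_pow, Pi.add_apply, Pi.smul_apply,
    smul_eq_mul] at h
  linear_combination h

/-- ZU2, when the Frobenius exponents are known -/
theorem zu2_core [Finite F] {s : F ≃+* F} {q0 : ℕ} (hq0 : 2 ≤ q0) (hq : Nat.card F = q0 ^ 3)
    (hs : (∀ a : F, s.symm a = a ^ (q0 ^ 2)) ∧ (∀ a : F, s a = a ^ q0) ∨
      (∀ a : F, s.symm a = a ^ q0) ∧ (∀ a : F, s a = a ^ (q0 ^ 2)))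
    (X Y : V8 F →ₗ[F] V8 F) (c : F → (V8 F ≃ₗ[F] V8 F)) (hc : ∀ t, c t ∈ AutD (fG s))
    (hX : ∀ t v, c t v = v + t • X v + t ^ 2 • Y v) (hY : Nat.card F = 8 → finrank F (LinearMap.range Y) ≤ 1) :
    X = 0 ∧ Y = 0 := by
  rcases Nat.lt_or_ge 2 q0 with h2 | h2
  · -- `q0 ≥ 3`
    have hb : 2 * q0 ^ 2 + 2 * q0 < Nat.card F := by
      rw [hq]
      nlinarith [h2, Nat.mul_le_mul h2 h2]
    have h3 : 3 ≤ q0 ^ 2 := by nlinarith
    have key : ∀ v w k, X (dia (fG s) v w) k = 0 ∧ Y (dia (fG s) v w) k = 0 := by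
      intro v w k
      rcases hs with ⟨hs1, hs2⟩ | ⟨hs1, hs2⟩
      · refine coeff_big (A := q0 ^ 2) (B := q0) h3 h2 hb (c₁ := dia (fG s) (X v) w k)
          (c₂ := dia (fG s) v (X w) k) (c₃ := dia (fG s) (Y v) w k) (c₄ := dia (fG s) v (Y w) k)
          (c₅ := dia (fG s) (X v) (X w) k) (c₆ := dia (fG s) (Y v) (X w) k) (c₇ := dia (fG s) (X v) (Y w) k)
          (c₈ := dia (fG s) (Y v) (Y w) k) fun t => ?_
        rw [rel X Y c hc hX v w k t, hs1, hs2]
        ring
      · refine coeff_big (A := q0) (B := q0 ^ 2) h2 h3 (by omega) (c₁ := dia (fG s) (X v) w k)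
          (c₂ := dia (fG s) v (X w) k) (c₃ := dia (fG s) (Y v) w k) (c₄ := dia (fG s) v (Y w) k)
          (c₅ := dia (fG s) (X v) (X w) k) (c₆ := dia (fG s) (Y v) (X w) k) (c₇ := dia (fG s) (X v) (Y w) k)
          (c₈ := dia (fG s) (Y v) (Y w) k) fun t => ?_
        rw [rel X Y c hc hX v w k t, hs1, hs2]
        ring
    constructor
    · apply LinearMap.ext
      intro z
      obtain ⟨v, w, rfl⟩ := exists_dia s z
      exact funext fun k => (key v w k).1
    · apply LinearMap.ext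
      intro z
      obtain ⟨v, w, rfl⟩ := exists_dia s z
      exact funext fun k => (key v w k).2
  · -- `q0 = 2`
    obtain rfl : q0 = 2 := le_antisymm h2 hq0
    have h8 : Nat.card F = 8 := by rw [hq]; norm_num
    obtain ⟨y, hy⟩ := finrank_le_one_iff.1 (hY h8)
    have hy' : ∀ z, ∃ k : F, Y z = k • (y : V8 F) := by
      intro z
      obtain ⟨k, hk⟩ := hy ⟨Y z, LinearMap.mem_range_self Y z⟩
      exact ⟨k, (congrArg Subtype.val hk).symm⟩
    rcases hs with ⟨hs1, hs2⟩ | ⟨hs1, hs2⟩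
    · have key : ∀ v w, Y (dia (fG s) v w) = dia (fG s) v (X w) := by
        intro v w
        funext k
        refine coeff_eight h8 (a := X (dia (fG s) v w) k) (c₁ := dia (fG s) (X v) w k) (c₃ := dia (fG s) (Y v) w k)
          (c₄ := dia (fG s) v (Y w) k) (c₅ := dia (fG s) (X v) (X w) k) (c₆ := dia (fG s) (Y v) (X w) k)
          (c₇ := dia (fG s) (X v) (Y w) k) (c₈ := dia (fG s) (Y v) (Y w) k) fun t => ?_
        rw [rel X Y c hc hX v w k t, hs1, hs2]
        ring
      have hX0 : X = 0 := by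
        apply LinearMap.ext
        intro w
        by_contra hne
        refine dia_line_left (s := s) (y := y) hne fun v => ?_
        rw [← key]
        exact hy' _
      refine ⟨hX0, LinearMap.ext fun z => ?_⟩
      obtain ⟨v, w, rfl⟩ := exists_dia s z
      rw [key, hX0]
      have := dia_smul_right s (0 : F) v 0
      rwa [zero_smul, map_zero, zero_smul] at this
    · have key : ∀ v w, Y (dia (fG s) v w) = dia (fG s) (X v) w := by
        intro v w
        funext k
        refine coeff_eight h8 (a := X (dia (fG s) v w) k) (c₁ := dia (fG s) v (X w) k) (c₃ := dia (fG s) v (Y w) k)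
          (c₄ := dia (fG s) (Y v) w k) (c₅ := dia (fG s) (X v) (X w) k) (c₆ := dia (fG s) (X v) (Y w) k)
          (c₇ := dia (fG s) (Y v) (X w) k) (c₈ := dia (fG s) (Y v) (Y w) k) fun t => ?_
        rw [rel X Y c hc hX v w k t, hs1, hs2]
        ring
      have hX0 : X = 0 := by
        apply LinearMap.ext
        intro w
        by_contra hne
        refine dia_line_right (s := s) (y := y) hne fun v => ?_
        rw [← key]
        exact hy' _
      refine ⟨hX0, LinearMap.ext fun z => ?_⟩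
      obtain ⟨v, w, rfl⟩ := exists_dia s z
      rw [key, hX0]
      have := dia_smul_left s (0 : F) 0 w
      rwa [zero_smul, map_zero, zero_smul] at this

/-- type II -/
theorem ZU2 [Finite F] {s : F ≃+* F} (h3 : ∀ a, s (s (s a)) = a) (hne : s ≠ RingEquiv.refl F)
    (X Y : V8 F →ₗ[F] V8 F) (c : F → (V8 F ≃ₗ[F] V8 F)) (hc : ∀ t, c t ∈ AutD (fG s))
    (hX : ∀ t v, c t v = v + t • X v + t ^ 2 • Y v) (hY : Nat.card F = 8 → finrank F (LinearMap.range Y) ≤ 1) :
    X = 0 ∧ Y = 0 := by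
  obtain ⟨q0, h2, hq, -, -, hs⟩ := H256.RC.BQ h3 hne
  have hsymm : ∀ a, s.symm a = s (s a) := fun a => by rw [RingEquiv.symm_apply_eq, h3]
  refine zu2_core h2 hq ?_ X Y c hc hX hY
  rcases hs with hs | hs
  · left
    refine ⟨fun a => ?_, hs⟩
    rw [hsymm, hs, hs, ← pow_mul, pow_two]
  · right
    refine ⟨fun a => ?_, hs⟩
    have hq3 : ∀ a : F, a ^ q0 ^ 3 = a := fun a => by
      have := Fintype.ofFinite F
      have := FiniteField.pow_card a
      rwa [← Nat.card_eq_fintype_card, hq] at this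
    rw [hsymm, hs, hs, ← pow_mul]
    have : q0 ^ 2 * q0 ^ 2 = q0 ^ 3 * q0 := by ring
    rw [this, pow_mul, hq3]

end Cfsg.Agent.H499.RC
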